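import Mathlib

set_option autoImplicit false

namespace Cfsg.Agent.Helper22

theorem card_dvd_of_tuples {P : Type*} [Group P] {ι : Type*} (A : Subgroup (MulAut P))
    (X : Set (ι → P)) (hX : ∀ α ∈ A, ∀ f ∈ X, (fun i => α (f i)) ∈ X)
    (hgen : ∀ f ∈ X, Subgroup.closure (Set.range f) = ⊤) : Nat.card A ∣ Nat.card X := by
  classical
  let inst : MulAction A X :=
    { smul := fun α f => ⟨fun i => (α : MulAut P) (f.1 i), hX α α.2 f.1 f.2⟩
      one_smul := fun f => Subtype.ext (funext fun i => rfl)
      mul_smul := fun α β f => Subtype.ext (funext fun i => rfl) }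
  have hstab : ∀ f : X, MulAction.stabilizer A f = ⊥ := by
    intro f
    rw [eq_bot_iff]
    intro α hα
    rw [MulAction.mem_stabilizer_iff] at hα
    have h1 : ∀ i, (α : MulAut P) (f.1 i) = f.1 i := by
      intro i
      have h0 := congrArg (fun g : X => g.1 i) hα
      exact h0
    have h2 : ((α : MulAut P) : P ≃* P).toMonoidHom = MonoidHom.id P := by
      apply MonoidHom.eq_of_eqOn_dense (hgen f.1 f.2)
      rintro _ ⟨i, rfl⟩
      exact h1 i
    rw [Subgroup.mem_bot]
    apply Subtype.ext
    apply MulEquiv.ext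
    intro x
    have h3 := congrArg (fun φ : P →* P => φ x) h2
    exact h3
  have e := MulAction.selfEquivOrbitsQuotientProd hstab
  rw [Nat.card_congr e, Nat.card_prod]
  exact dvd_mul_left _ _

theorem exists_finset_closure {Q : Type*} [Group Q] [Finite Q] {p : ℕ} [Fact p.Prime]
    (hQ : IsPGroup p Q) : ∀ (n : ℕ) (H : Subgroup Q), H.index = n →
      ∃ T : Finset Q, H ⊔ Subgroup.closure (T : Set Q) = ⊤ ∧ p ^ T.card ≤ H.index := by
  classical
  intro n
  induction n using Nat.strong_induction_on with
  | _ n ih =>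
    intro H hH
    by_cases htop : H = ⊤
    · refine ⟨∅, ?_, ?_⟩
      · rw [htop]; simp
      · rw [htop]; simp
    · obtain ⟨x, hx⟩ : ∃ x, x ∉ H := by
        by_contra hcon
        push Not at hcon
        exact htop (eq_top_iff.2 fun x _ => hcon x)
      have hlt : H < H ⊔ Subgroup.zpowers x := by
        apply lt_of_le_of_ne le_sup_left
        intro heq
        apply hx
        rw [heq]
        exact Subgroup.mem_sup_right (Subgroup.mem_zpowers x)
      have hmul := Subgroup.relIndex_mul_index hlt.le
      have hrel1 : H.relIndex (H ⊔ Subgroup.zpowers x) ≠ 1 := by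
        intro h
        exact hlt.not_ge (Subgroup.relIndex_eq_one.1 h)
      have hdvd : H.relIndex (H ⊔ Subgroup.zpowers x) ∣ Nat.card Q :=
        dvd_trans (Subgroup.relIndex_dvd_card _ _) (Subgroup.card_subgroup_dvd_card _)
      obtain ⟨m, hm⟩ := IsPGroup.iff_card.1 hQ
      rw [hm] at hdvd
      obtain ⟨j, hj, hje⟩ := (Nat.dvd_prime_pow (Fact.out)).1 hdvd
      have hp_le : p ≤ H.relIndex (H ⊔ Subgroup.zpowers x) := by
        rcases Nat.eq_zero_or_pos j with h0 | hpos
        · rw [h0, pow_zero] at hje; exact absurd hje hrel1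
        · rw [hje]; exact Nat.le_self_pow hpos.ne' p
      have hidx_pos : 0 < (H ⊔ Subgroup.zpowers x).index :=
        Nat.pos_of_ne_zero Subgroup.index_ne_zero_of_finite
      have hlt' : (H ⊔ Subgroup.zpowers x).index < n := by
        rw [← hH, ← hmul]
        have h2 : 2 ≤ H.relIndex (H ⊔ Subgroup.zpowers x) :=
          le_trans (Fact.out : p.Prime).two_le hp_le
        nlinarith
      obtain ⟨T', hT'1, hT'2⟩ := ih _ hlt' (H ⊔ Subgroup.zpowers x) rfl
      refine ⟨insert x T', ?_, ?_⟩
      · rw [eq_top_iff, ← hT'1]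
        apply sup_le
        · apply sup_le le_sup_left
          rw [Subgroup.zpowers_le]
          exact Subgroup.mem_sup_right (Subgroup.subset_closure (by simp))
        · exact le_sup_of_le_right (Subgroup.closure_mono (by simp))
      · calc p ^ (insert x T').card ≤ p ^ (T'.card + 1) :=
              Nat.pow_le_pow_right (Fact.out : p.Prime).pos (Finset.card_insert_le x T')
          _ = p * p ^ T'.card := by ring
          _ ≤ H.relIndex (H ⊔ Subgroup.zpowers x) * (H ⊔ Subgroup.zpowers x).index :=
              Nat.mul_le_mul hp_le hT'2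
          _ = H.index := hmul

theorem closure_eq_top_of_map_mk {P : Type*} [Group P] [Finite P] (S : Set P)
    (h : (Subgroup.closure S).map (QuotientGroup.mk' (frattini P)) = ⊤) :
    Subgroup.closure S = ⊤ := by
  apply frattini_nongenerating
  have h2 := congrArg (Subgroup.comap (QuotientGroup.mk' (frattini P))) h
  rw [Subgroup.comap_map_eq, QuotientGroup.ker_mk', Subgroup.comap_top] at h2
  exact h2

theorem exists_gen_of_frattini_index {P : Type*} [Group P] [Finite P] {p r : ℕ} [Fact p.Prime]
    (hP : IsPGroup p P) (hr : (frattini P).index = p ^ r) :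
    ∃ (T : Finset P), T.card ≤ r ∧ Subgroup.closure (T : Set P) = ⊤ := by
  classical
  have hQ : IsPGroup p (P ⧸ frattini P) := hP.to_quotient (frattini P)
  obtain ⟨T', hT'1, hT'2⟩ := exists_finset_closure hQ _ ⊥ rfl
  rw [bot_sup_eq] at hT'1
  rw [Subgroup.index_bot, ← Subgroup.index_eq_card, hr] at hT'2
  have hcard : T'.card ≤ r := (Nat.pow_le_pow_iff_right (Fact.out : p.Prime).one_lt).1 hT'2
  refine ⟨T'.image Quotient.out, le_trans Finset.card_image_le hcard, ?_⟩
  apply closure_eq_top_of_map_mk
  rw [MonoidHom.map_closure, ← hT'1]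
  congr 1
  ext q
  simp only [Finset.coe_image, Set.mem_image, Finset.mem_coe]
  constructor
  · rintro ⟨_, ⟨t, ht, rfl⟩, rfl⟩
    rw [QuotientGroup.mk'_apply, QuotientGroup.out_eq']; exact ht
  · intro hq
    exact ⟨q.out, ⟨q, hq, rfl⟩, by rw [QuotientGroup.mk'_apply, QuotientGroup.out_eq']⟩

end Cfsg.Agent.Helper22
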