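import Mathlib
import Cfsg.Agent.Helper1.Quat

set_option autoImplicit false

namespace Cfsg.Agent.Helper22

theorem unique_or_exponent {G : Type*} [Group G] [Finite G] {p : ℕ} [Fact p.Prime]
    (P : Subgroup G) (hP : IsPGroup p P)
    (h2 : ∀ E C : Subgroup G, E ≤ P → C ≤ P → (∀ x ∈ E, ∀ y ∈ E, x * y = y * x) →
      (∀ x ∈ C, ∀ y ∈ C, x * y = y * x) → Nat.card E = p ^ 2 → Nat.card C = p ^ 2 →
      (∀ x ∈ E, x ^ p = 1) → ∀ x ∈ C, x ^ p = 1) :
    (∀ H K : Subgroup P, Nat.card H = p → Nat.card K = p → H = K) ∨ ∀ x ∈ P, x ^ p = 1 := by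
  classical
  have hp : p.Prime := Fact.out
  by_cases hab : ∀ B : Subgroup P, (∀ x ∈ B, ∀ y ∈ B, x * y = y * x) → IsCyclic B
  · exact Or.inl (Helper1.unique_of_abelian_cyclic p hP hab)
  · right
    push Not at hab
    obtain ⟨B, hBc, hBnc⟩ := hab
    obtain ⟨r, hr, a, b, ha1, har, hbr, hb⟩ :=
      Helper1.exists_noncyclic_pair (A := ↥B) (fun x y => Subtype.ext (hBc x x.2 y y.2)) hBnc
    have hrp : r = p := by
      have : Fact r.Prime := ⟨hr⟩
      have hoa : orderOf a = r := orderOf_eq_prime har ha1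
      obtain ⟨k, hk⟩ := (IsPGroup.iff_orderOf.mp hP) (a : P)
      have h1 : r ∣ p ^ k := by
        rw [← hk, ← hoa, Subgroup.orderOf_coe]
      exact (Nat.prime_dvd_prime_iff_eq hr hp).mp (hr.dvd_of_dvd_pow h1)
    rw [hrp] at har hbr
    obtain ⟨B', hB'⟩ : ∃ X : Subgroup G, X = B.map P.subtype := ⟨_, rfl⟩
    have hB'P : B' ≤ P := by rw [hB']; exact Subgroup.map_subtype_le _
    have hcomm' : ∀ x ∈ B', ∀ y ∈ B', x * y = y * x := by
      intro x hx y hy
      rw [hB'] at hx hy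
      obtain ⟨x', hx', rfl⟩ := hx
      obtain ⟨y', hy', rfl⟩ := hy
      rw [← map_mul, ← map_mul, hBc x' hx' y' hy']
    obtain ⟨a', ha'⟩ : ∃ z : G, z = ((a : P) : G) := ⟨_, rfl⟩
    obtain ⟨b', hb'⟩ : ∃ z : G, z = ((b : P) : G) := ⟨_, rfl⟩
    have ha'B : a' ∈ B' := by rw [hB', ha']; exact ⟨(a : P), a.2, rfl⟩
    have hb'B : b' ∈ B' := by rw [hB', hb']; exact ⟨(b : P), b.2, rfl⟩
    have ha'p : a' ^ p = 1 := by
      rw [ha']
      have h1 : (((a ^ p : B) : P) : G) = 1 := by rw [har]; rfl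
      exact h1
    have hb'p : b' ^ p = 1 := by
      rw [hb']
      have h1 : (((b ^ p : B) : P) : G) = 1 := by rw [hbr]; rfl
      exact h1
    have ha'1 : a' ≠ 1 := by
      intro h
      apply ha1
      rw [ha'] at h
      exact Subtype.ext (Subtype.ext h)
    have hb'a : b' ∉ Subgroup.zpowers a' := by
      intro h
      apply hb
      obtain ⟨k, hk⟩ := Subgroup.mem_zpowers_iff.mp h
      refine Subgroup.mem_zpowers_iff.mpr ⟨k, ?_⟩
      apply Subtype.ext
      apply Subtype.ext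
      rw [ha', hb'] at hk
      rw [← hk]
      simp
    let Ω : Subgroup G :=
      { carrier := {x | x ∈ B' ∧ x ^ p = 1}
        one_mem' := ⟨Subgroup.one_mem _, one_pow p⟩
        mul_mem' := by
          rintro x y ⟨hx, hxp⟩ ⟨hy, hyp⟩
          refine ⟨Subgroup.mul_mem _ hx hy, ?_⟩
          have hc : Commute x y := hcomm' x hx y hy
          rw [hc.mul_pow, hxp, hyp, one_mul]
        inv_mem' := by
          rintro x ⟨hx, hxp⟩
          exact ⟨Subgroup.inv_mem _ hx, by rw [inv_pow, hxp, inv_one]⟩ }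
    have hΩmem : ∀ x : G, x ∈ Ω ↔ x ∈ B' ∧ x ^ p = 1 := fun x => Iff.rfl
    have hΩP : Ω ≤ P := fun x hx => hB'P ((hΩmem x).mp hx).1
    have haΩ : a' ∈ Ω := (hΩmem a').mpr ⟨ha'B, ha'p⟩
    have hbΩ : b' ∈ Ω := (hΩmem b').mpr ⟨hb'B, hb'p⟩
    obtain ⟨j, hj⟩ := (hP.to_le hΩP).exists_card_eq
    have hoa' : orderOf a' = p := orderOf_eq_prime ha'p ha'1
    have hzle : Subgroup.zpowers a' ≤ Ω := by
      rw [Subgroup.zpowers_le]; exact haΩ
    have hlt : p < Nat.card Ω := by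
      have h1 : Nat.card (Subgroup.zpowers a') = p := by rw [Nat.card_zpowers, hoa']
      by_contra hge
      push Not at hge
      have h2 : Subgroup.zpowers a' = Ω :=
        Subgroup.eq_of_le_of_card_ge hzle (by rw [h1]; exact hge)
      exact hb'a (by rw [h2]; exact hbΩ)
    have hj2 : 2 ≤ j := by
      by_contra hj2
      push Not at hj2
      have h1 : p ^ j ≤ p ^ 1 := Nat.pow_le_pow_right hp.pos (by omega)
      rw [hj] at hlt
      rw [pow_one] at h1
      omega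
    have hdvd : p ^ 2 ∣ Nat.card Ω := by rw [hj]; exact pow_dvd_pow p hj2
    obtain ⟨K, hK⟩ := Sylow.exists_subgroup_card_pow_prime p hdvd
    obtain ⟨E, hE⟩ : ∃ X : Subgroup G, X = K.map Ω.subtype := ⟨_, rfl⟩
    have hEΩ : E ≤ Ω := by rw [hE]; exact Subgroup.map_subtype_le _
    have hEcard : Nat.card E = p ^ 2 := by
      rw [hE, Subgroup.card_map_of_injective Ω.subtype_injective]; exact hK
    have hEc : ∀ x ∈ E, ∀ y ∈ E, x * y = y * x := fun x hx y hy =>
      hcomm' x ((hΩmem x).mp (hEΩ hx)).1 y ((hΩmem y).mp (hEΩ hy)).1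
    have hEp : ∀ x ∈ E, x ^ p = 1 := fun x hx => ((hΩmem x).mp (hEΩ hx)).2
    intro y hy
    by_contra hyp
    obtain ⟨k, hk⟩ := (IsPGroup.iff_orderOf.mp hP) ⟨y, hy⟩
    rw [Subgroup.orderOf_mk] at hk
    have hk2 : 2 ≤ k := by
      by_contra hk2
      push Not at hk2
      apply hyp
      have h1 : orderOf y ∣ p := by
        rw [hk]
        have : k = 0 ∨ k = 1 := by omega
        rcases this with h | h
        · rw [h, pow_zero]; exact one_dvd p
        · rw [h, pow_one]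
      exact orderOf_dvd_iff_pow_eq_one.mp h1
    obtain ⟨w, hw⟩ : ∃ w : G, w = y ^ (p ^ (k - 2)) := ⟨_, rfl⟩
    have how : orderOf w = p ^ 2 := by
      rw [hw, orderOf_pow_of_dvd (pow_ne_zero _ hp.ne_zero)
        (by rw [hk]; exact pow_dvd_pow p (by omega)), hk, Nat.pow_div (by omega) hp.pos]
      congr 1
      omega
    have hwP : w ∈ P := by rw [hw]; exact Subgroup.pow_mem _ hy _
    have hCP : Subgroup.zpowers w ≤ P := by rw [Subgroup.zpowers_le]; exact hwP
    have hCc : ∀ x ∈ Subgroup.zpowers w, ∀ y ∈ Subgroup.zpowers w, x * y = y * x := by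
      intro x hx y hy
      obtain ⟨i, rfl⟩ := Subgroup.mem_zpowers_iff.mp hx
      obtain ⟨l, rfl⟩ := Subgroup.mem_zpowers_iff.mp hy
      exact zpow_mul_comm w i l
    have hCcard : Nat.card (Subgroup.zpowers w) = p ^ 2 := by rw [Nat.card_zpowers, how]
    have h3 := h2 E (Subgroup.zpowers w) (hEΩ.trans hΩP) hCP hEc hCc hEcard hCcard hEp w
      (Subgroup.mem_zpowers w)
    have h4 : p ^ 2 ∣ p := by
      rw [← how]; exact orderOf_dvd_of_pow_eq_one h3
    have h5 : p ^ 2 ≤ p := Nat.le_of_dvd hp.pos h4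
    have h6 : 2 ≤ p := hp.two_le
    nlinarith

end Cfsg.Agent.Helper22
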