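import Mathlib
import Cfsg.Prelude.Def_Classical
import Cfsg.Prelude.Def_JordanBlocks
import Cfsg.Agent.S2167
import Cfsg.Agent.Helper22.JordOrth
import Cfsg.Agent.Helper24.JordSymp

/-!
Forward direction of S2584 (unipotent Jordan types in the isometry group of a quadratic form with
nondegenerate polar form in characteristic two): odd block sizes occur an even number of times.
-/

set_option autoImplicit false

open Matrix

namespace Cfsg.Agent.Helper22

/-- Even powers of `A - 1` have even rank when `A` preserves a nondegenerate alternating matrix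
(any index type; the argument of the S2582 sprint piece R3). -/
theorem jdf_rank_even {F : Type*} [Field F] {ι : Type*} [Fintype ι] [DecidableEq ι]
    (A P : Matrix ι ι F)
    (halt : ∀ v, v ⬝ᵥ P *ᵥ v = 0) (hdet : P.det ≠ 0) (hA : Aᵀ * P * A = P) (k : ℕ)
    (hk : Even k) : Even ((A - 1) ^ k).rank := by
  obtain ⟨i, rfl⟩ := hk
  have hd := congrArg Matrix.det hA
  rw [Matrix.det_mul, Matrix.det_mul, Matrix.det_transpose] at hd
  have hA0 : A.det ≠ 0 := by
    intro h0
    apply hdet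
    rw [← hd, h0, mul_zero]
  have hAu : IsUnit A.det := hA0.isUnit
  obtain ⟨B, hB⟩ : ∃ B : Matrix ι ι F, B = A⁻¹ := ⟨_, rfl⟩
  have hAB : A * B = 1 := by rw [hB]; exact Matrix.mul_nonsing_inv A hAu
  have hBA : B * A = 1 := by rw [hB]; exact Matrix.nonsing_inv_mul A hAu
  obtain ⟨N, hN⟩ : ∃ N : Matrix ι ι F, N = A - 1 := ⟨_, rfl⟩
  rw [← hN]
  have h1 : Aᵀ * P = P * B := by
    calc Aᵀ * P = Aᵀ * P * (A * B) := by rw [hAB, mul_one]
      _ = (Aᵀ * P * A) * B := by rw [← mul_assoc]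
      _ = P * B := by rw [hA]
  have e1 : (-B) * N = B - 1 := by
    rw [hN, neg_mul, mul_sub, mul_one, hBA]; abel
  have h2 : Nᵀ * P = P * ((-B) * N) := by
    rw [e1, hN, Matrix.transpose_sub, Matrix.transpose_one, sub_mul, one_mul, h1, mul_sub, mul_one]
  have hcBA : Commute B A := by
    show B * A = A * B
    rw [hBA, hAB]
  have hc : Commute (-B) N := by
    rw [hN]
    exact (hcBA.sub_right (Commute.one_right B)).neg_left
  have h3 : ∀ j : ℕ, (Nᵀ) ^ j * P = P * ((-B) * N) ^ j := by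
    intro j
    induction j with
    | zero => simp
    | succ j ih =>
      calc (Nᵀ) ^ (j + 1) * P = (Nᵀ) ^ j * (Nᵀ * P) := by rw [pow_succ, mul_assoc]
        _ = (Nᵀ) ^ j * P * ((-B) * N) := by rw [h2, ← mul_assoc]
        _ = P * ((-B) * N) ^ j * ((-B) * N) := by rw [ih]
        _ = P * ((-B) * N) ^ (j + 1) := by rw [mul_assoc, ← pow_succ]
  have hS : (N ^ i)ᵀ * P * N ^ i = P * (-B) ^ i * N ^ (i + i) := by
    calc (N ^ i)ᵀ * P * N ^ i = P * ((-B) * N) ^ i * N ^ i := by rw [Matrix.transpose_pow, h3]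
      _ = P * ((-B) ^ i * N ^ i) * N ^ i := by rw [hc.mul_pow]
      _ = P * (-B) ^ i * N ^ (i + i) := by rw [pow_add]; simp only [mul_assoc]
  have halt' : ∀ v : ι → F, v ⬝ᵥ (((N ^ i)ᵀ * P * N ^ i).mulVec v) = 0 := by
    intro v
    have e : ((N ^ i)ᵀ * P * N ^ i) *ᵥ v = (N ^ i)ᵀ *ᵥ (P *ᵥ (N ^ i *ᵥ v)) := by
      simp only [Matrix.mulVec_mulVec, Matrix.mul_assoc]
    rw [e, Matrix.dotProduct_mulVec, Matrix.vecMul_transpose]
    exact halt _
  have hev := Cfsg.Agent.S2167.even_rank_of_alt _ halt'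
  have hun : IsUnit (P * (-B) ^ i).det := by
    rw [Matrix.det_mul, Matrix.det_pow]
    exact hdet.isUnit.mul
      ((Matrix.isUnit_det_of_right_inverse (B := -A) (by rw [neg_mul_neg, hBA])).pow i)
  rw [hS, Matrix.rank_mul_eq_right_of_isUnit_det _ _ hun] at hev
  exact hev

/-- In characteristic two the Gram matrix of the polar form of a quadratic form is alternating;
it is invertible when the polar form is nondegenerate and it is preserved by the isometries. -/
theorem jdf_gram {F : Type*} [Field F] [CharP F 2] {n : ℕ} (Q : QuadraticForm F (Fin n → F))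
    (hQ : (QuadraticMap.polarBilin Q).Nondegenerate) :
    ∃ P : Matrix (Fin n) (Fin n) F, (∀ v, v ⬝ᵥ P *ᵥ v = 0) ∧ P.det ≠ 0 ∧
      ∀ g : Matrix.GeneralLinearGroup (Fin n) F, g ∈ Cfsg.isometryGroup F ⇑Q →
        (g : Matrix (Fin n) (Fin n) F)ᵀ * P * (g : Matrix (Fin n) (Fin n) F) = P := by
  classical
  refine ⟨LinearMap.BilinForm.toMatrix' (QuadraticMap.polarBilin Q), ?_, ?_, ?_⟩
  · intro v
    have h1 : v ⬝ᵥ (LinearMap.BilinForm.toMatrix' (QuadraticMap.polarBilin Q)) *ᵥ v
        = QuadraticMap.polarBilin Q v v := by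
      rw [← Matrix.toBilin'_apply', Matrix.toBilin'_toMatrix']
    have h2 : QuadraticMap.polar (⇑Q) v v = 0 := by
      have h3 : v + v = (2 : F) • v := (two_smul F v).symm
      have h4 : (2 : F) = 0 := CharTwo.two_eq_zero
      have h5 : Q v + Q v = 0 := CharTwo.add_self_eq_zero (Q v)
      unfold QuadraticMap.polar
      rw [h3, h4, zero_smul, QuadraticMap.map_zero]
      linear_combination (-1 : F) * h5
    rw [h1, QuadraticMap.polarBilin_apply_apply, h2]
  · rw [← Matrix.nondegenerate_iff_det_ne_zero]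
    exact LinearMap.BilinForm.nondegenerate_toMatrix'_iff.mpr hQ
  · intro g hg
    have h1 : ∀ u : Fin n → F, Q ((g : Matrix (Fin n) (Fin n) F) *ᵥ u) = Q u := fun u => hg u u
    have h2 : LinearMap.BilinForm.comp (QuadraticMap.polarBilin Q)
        (Matrix.toLin' (g : Matrix (Fin n) (Fin n) F))
        (Matrix.toLin' (g : Matrix (Fin n) (Fin n) F)) = QuadraticMap.polarBilin Q := by
      apply LinearMap.ext₂
      intro u w
      simp only [LinearMap.BilinForm.comp_apply, Matrix.toLin'_apply,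
        QuadraticMap.polarBilin_apply_apply, QuadraticMap.polar, ← Matrix.mulVec_add, h1]
    have h3 := congrArg LinearMap.BilinForm.toMatrix' h2
    rw [LinearMap.BilinForm.toMatrix'_comp] at h3
    simpa using h3

/-- Forward direction of S2584 (use with `n := 2 * m`). -/
theorem s2584_fwd {F : Type*} [Field F] [CharP F 2] {n t : ℕ} (d : Fin t → ℕ)
    (Q : QuadraticForm F (Fin n → F)) (hQ : (QuadraticMap.polarBilin Q).Nondegenerate)
    (e : ((k : Fin t) × Fin (d k)) ≃ Fin n) (A : ↥(Cfsg.isometryGroup F ⇑Q))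
    (hconj : IsConj (Matrix.reindex e e (Cfsg.jordanTypeMatrix d F))
      ((A : Matrix.GeneralLinearGroup (Fin n) F) : Matrix (Fin n) (Fin n) F)) :
    ∀ j : ℕ, Odd j → Even (Finset.univ.filter (fun k : Fin t => d k = j)).card := by
  classical
  obtain ⟨P, halt, hPdet, hP⟩ := jdf_gram Q hQ
  obtain ⟨c, hc⟩ := hconj
  obtain ⟨Am, hAm⟩ : ∃ Am : Matrix (Fin n) (Fin n) F,
      Am = ((A : Matrix.GeneralLinearGroup (Fin n) F) : Matrix (Fin n) (Fin n) F) := ⟨_, rfl⟩
  obtain ⟨J', hJ'⟩ : ∃ J' : Matrix (Fin n) (Fin n) F,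
      J' = Matrix.reindex e e (Cfsg.jordanTypeMatrix d F) := ⟨_, rfl⟩
  have hre : ∀ k : ℕ, ((J' - 1) ^ k).rank = ∑ i, (d i - k) := by
    intro k
    have h3 : ∀ Z, Matrix.reindex e e Z = Matrix.reindexAlgEquiv F F e Z :=
      fun Z => (Matrix.reindexAlgEquiv_apply F F e Z).symm
    have h1 : (Matrix.reindex e e (Cfsg.jordanTypeMatrix d F) - 1) ^ k
        = Matrix.reindex e e ((Cfsg.jordanTypeMatrix d F - 1) ^ k) := by
      rw [h3, h3, map_pow, map_sub, map_one]
    rw [hJ', h1, Matrix.rank_reindex, jordanType_rank]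
  have hc' : (c : Matrix (Fin n) (Fin n) F) * J' = Am * (c : Matrix (Fin n) (Fin n) F) := by
    rw [hJ', hAm]
    exact hc
  have hpow : ∀ k, (c : Matrix (Fin n) (Fin n) F) * (J' - 1) ^ k
      = (Am - 1) ^ k * (c : Matrix (Fin n) (Fin n) F) := by
    intro k
    induction k with
    | zero => rw [pow_zero, pow_zero, mul_one, one_mul]
    | succ k ih =>
      rw [pow_succ, ← mul_assoc, ih, mul_assoc, pow_succ, mul_assoc]
      congr 1
      rw [mul_sub, sub_mul, hc', mul_one, one_mul]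
  have hcdet : IsUnit (c : Matrix (Fin n) (Fin n) F).det :=
    (Matrix.isUnit_iff_isUnit_det _).1 c.isUnit
  have hcidet : IsUnit ((c⁻¹ : (Matrix (Fin n) (Fin n) F)ˣ) : Matrix (Fin n) (Fin n) F).det :=
    (Matrix.isUnit_iff_isUnit_det _).1 (c⁻¹).isUnit
  have hrank : ∀ k, ((Am - 1) ^ k).rank = ∑ i, (d i - k) := by
    intro k
    have h1 : (Am - 1) ^ k = (c : Matrix (Fin n) (Fin n) F) * (J' - 1) ^ k
        * ((c⁻¹ : (Matrix (Fin n) (Fin n) F)ˣ) : Matrix (Fin n) (Fin n) F) := by
      rw [hpow, mul_assoc, Units.mul_inv, mul_one]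
    rw [h1, Matrix.rank_mul_eq_left_of_isUnit_det _ _ hcidet,
      Matrix.rank_mul_eq_right_of_isUnit_det _ _ hcdet, hre]
  have hAP : Amᵀ * P * Am = P := by
    rw [hAm]
    exact hP _ A.2
  have hev : ∀ k, Even k → Even (∑ i, (d i - k)) := by
    intro k hk
    rw [← hrank k]
    exact jdf_rank_even Am P halt hPdet hAP k hk
  exact fun j hj => Cfsg.Agent.Helper24.count_even_of_rank_even_odd d hev j hj

end Cfsg.Agent.Helper22
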