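import Mathlib
import Cfsg.Agent.Helper21.Primary
import Cfsg.Agent.Helper12.Syl
import Cfsg.Agent.Helper1.Coprime2

set_option autoImplicit false

namespace Cfsg.Agent.Helper22

/-- `x` is a `π`-element: every prime dividing its order lies in `π`. -/
def PiElt (π : Set ℕ) {G : Type*} [Group G] (x : G) : Prop :=
  ∀ p : ℕ, p.Prime → p ∣ orderOf x → p ∈ π

section basic

variable {π : Set ℕ} {G : Type*} [Group G]

theorem piElt_one : PiElt π (1 : G) := by
  intro p hp hdvd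
  rw [orderOf_one] at hdvd
  exact absurd (Nat.dvd_one.mp hdvd) hp.one_lt.ne'

theorem piElt_of_dvd {x : G} {m : ℕ} (h : orderOf x ∣ m)
    (hm : ∀ p : ℕ, p.Prime → p ∣ m → p ∈ π) : PiElt π x :=
  fun p hp hdvd => hm p hp (hdvd.trans h)

theorem piElt_pow {x : G} (h : PiElt π x) (k : ℕ) : PiElt π (x ^ k) :=
  fun p hp hdvd => h p hp (hdvd.trans (orderOf_pow_dvd k))

theorem piElt_map {H : Type*} [Group H] (f : G →* H) {x : G} (h : PiElt π x) :
    PiElt π (f x) :=
  fun p hp hdvd => h p hp (hdvd.trans (orderOf_map_dvd f x))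

theorem eq_one_of_piElt {x : G} {m : ℕ} (h : PiElt π x) (hdvd : orderOf x ∣ m)
    (hm : ∀ p : ℕ, p.Prime → p ∣ m → p ∉ π) : x = 1 := by
  by_contra hx
  have h1 : orderOf x ≠ 1 := fun h1 => hx (orderOf_eq_one_iff.mp h1)
  obtain ⟨p, hp, hpx⟩ := Nat.exists_prime_and_dvd h1
  exact hm p hp (hpx.trans hdvd) (h p hp hpx)

theorem piElt_of_map {H : Type*} [Group H] (f : G →* H)
    (hker : ∀ x ∈ f.ker, PiElt π x) {x : G} (h : PiElt π (f x)) : PiElt π x := by
  have h1 : x ^ orderOf (f x) ∈ f.ker := by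
    rw [MonoidHom.mem_ker, map_pow, pow_orderOf_eq_one]
  have h2 := hker _ h1
  have h3 : orderOf x ∣ orderOf (f x) * orderOf (x ^ orderOf (f x)) := by
    apply orderOf_dvd_of_pow_eq_one
    rw [pow_mul, pow_orderOf_eq_one]
  intro p hp hdvd
  rcases (Nat.Prime.dvd_mul hp).mp (hdvd.trans h3) with h4 | h4
  · exact h p hp h4
  · exact h2 p hp h4

theorem piElt_conj {x : G} (h : PiElt π x) (g : G) : PiElt π (g * x * g⁻¹) := by
  have h1 : orderOf (g * x * g⁻¹) = orderOf x := by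
    have := orderOf_injective (MulAut.conj g).toMonoidHom (MulAut.conj g).injective x
    simpa using this
  intro p hp hdvd
  rw [h1] at hdvd
  exact h p hp hdvd

theorem piNum_card [Finite G] (h : ∀ x : G, PiElt π x) :
    ∀ p : ℕ, p.Prime → p ∣ Nat.card G → p ∈ π := by
  intro p hp hdvd
  have : Fact p.Prime := ⟨hp⟩
  obtain ⟨x, hx⟩ := exists_prime_orderOf_dvd_card' p hdvd
  exact h x p hp (by rw [hx])

end basic

/-- every `π`-element normalizing a nontrivial `q`-subgroup (`q ∉ π`) centralizes it -/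
def WHom (π : Set ℕ) (G : Type*) [Group G] : Prop :=
  ∀ (q : ℕ), q.Prime → q ∉ π → ∀ Q : Subgroup G, IsPGroup q Q → Q ≠ ⊥ →
    ∀ g : G, g ∈ Subgroup.normalizer (Q : Set G) → PiElt π g →
      g ∈ Subgroup.centralizer (Q : Set G)

theorem whom_of_hom {G : Type*} [Group G] [Finite G] (π : Set ℕ)
    (hhom : ∀ H : Subgroup G, H ≠ ⊥ → (∀ p : ℕ, p.Prime → p ∣ Nat.card ↥H → p ∉ π) →
      ∀ p : ℕ, p.Prime → p ∣ (Subgroup.centralizer (H : Set G)).relIndex
        (Subgroup.normalizer (H : Set G)) → p ∉ π) :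
    WHom π G := by
  intro q hq hqπ Q hQ hQ1 g hg hgπ
  have : Fact q.Prime := ⟨hq⟩
  have h1 : ∀ p : ℕ, p.Prime → p ∣ Nat.card ↥Q → p ∉ π := by
    intro p hp hdvd
    obtain ⟨j, hj⟩ := hQ.exists_card_eq
    rw [hj] at hdvd
    have h2 : p = q := (Nat.prime_dvd_prime_iff_eq hp hq).mp (hp.dvd_of_dvd_pow hdvd)
    rw [h2]; exact hqπ
  have h2 := hhom Q hQ1 h1
  obtain ⟨γ, hγ⟩ : ∃ γ : Subgroup.normalizer (Q : Set G), γ = ⟨g, hg⟩ := ⟨_, rfl⟩
  have h5 : γ ^ ((Subgroup.centralizer (Q : Set G)).subgroupOf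
      (Subgroup.normalizer (Q : Set G))).index ∈
      (Subgroup.centralizer (Q : Set G)).subgroupOf (Subgroup.normalizer (Q : Set G)) :=
    Subgroup.pow_index_mem _ γ
  have h6 : γ ^ orderOf g ∈
      (Subgroup.centralizer (Q : Set G)).subgroupOf (Subgroup.normalizer (Q : Set G)) := by
    have h7 : γ ^ orderOf g = 1 := by
      rw [hγ]
      apply Subtype.ext
      simp [pow_orderOf_eq_one]
    rw [h7]; exact Subgroup.one_mem _
  have hcop : Nat.Coprime ((Subgroup.centralizer (Q : Set G)).subgroupOf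
      (Subgroup.normalizer (Q : Set G))).index (orderOf g) := by
    by_contra hnc
    obtain ⟨p, hp, hp1, hp2⟩ := Nat.Prime.not_coprime_iff_dvd.mp hnc
    exact h2 p hp hp1 (hgπ p hp hp2)
  have h9 := Helper21.mem_of_pow_mem_of_coprime hcop h5 h6
  rw [Subgroup.mem_subgroupOf, hγ] at h9
  exact h9

theorem whom_subgroup {π : Set ℕ} {G : Type*} [Group G] (h : WHom π G) (U : Subgroup G) :
    WHom π ↥U := by
  intro q hq hqπ Q hQ hQ1 g hg hgπ
  have hQ' : IsPGroup q (Q.map U.subtype) := hQ.map U.subtype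
  have hQ1' : Q.map U.subtype ≠ ⊥ := by
    intro h0
    apply hQ1
    rwa [Subgroup.map_eq_bot_iff_of_injective _ U.subtype_injective] at h0
  have hg' : (g : G) ∈ Subgroup.normalizer ((Q.map U.subtype : Subgroup G) : Set G) :=
    Subgroup.le_normalizer_map U.subtype (Subgroup.mem_map_of_mem U.subtype hg)
  have hgπ' : PiElt π (g : G) := by
    intro p hp hdvd
    rw [Subgroup.orderOf_coe] at hdvd
    exact hgπ p hp hdvd
  have hc := h q hq hqπ _ hQ' hQ1' (g : G) hg' hgπ'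
  rw [Subgroup.mem_centralizer_iff] at hc ⊢
  intro x hx
  exact Subtype.ext (hc (x : G) ⟨x, hx, rfl⟩)

theorem whom_quot {π : Set ℕ} {G : Type*} [Group G] [Finite G] (h : WHom π G)
    (L : Subgroup G) [L.Normal] (hL : ∀ x ∈ L, PiElt π x) : WHom π (G ⧸ L) := by
  intro q hq hqπ Qb hQb hQb1 gb hgb hgbπ
  have : Fact q.Prime := ⟨hq⟩
  obtain ⟨f, hf⟩ : ∃ f : G →* G ⧸ L, f = QuotientGroup.mk' L := ⟨_, rfl⟩
  have hfs : Function.Surjective f := by rw [hf]; exact QuotientGroup.mk'_surjective L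
  have hker : f.ker = L := by rw [hf]; exact QuotientGroup.ker_mk' L
  have hkerπ : ∀ x ∈ f.ker, PiElt π x := by rw [hker]; exact hL
  obtain ⟨Qs, hQs⟩ : ∃ X : Subgroup G, X = Subgroup.comap f Qb := ⟨_, rfl⟩
  obtain ⟨S₀⟩ : Nonempty (Sylow q Qs) := inferInstance
  obtain ⟨Q, hQdef⟩ : ∃ X : Subgroup G, X = (S₀ : Subgroup Qs).map Qs.subtype := ⟨_, rfl⟩
  have hQle : Q ≤ Qs := by rw [hQdef]; exact Subgroup.map_subtype_le _
  have hQp : IsPGroup q Q := by rw [hQdef]; exact S₀.2.map _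
  have hinj : ∀ x ∈ Q, f x = 1 → x = 1 := by
    intro x hx hfx
    have h1 : PiElt π x := hkerπ x (MonoidHom.mem_ker.mpr hfx)
    obtain ⟨k, hk⟩ := (IsPGroup.iff_orderOf.mp hQp) ⟨x, hx⟩
    rw [Subgroup.orderOf_mk] at hk
    refine eq_one_of_piElt h1 (m := q ^ k) (by rw [hk]) (fun p hp hdvd => ?_)
    have h2 : p = q := (Nat.prime_dvd_prime_iff_eq hp hq).mp (hp.dvd_of_dvd_pow hdvd)
    rw [h2]; exact hqπ
  have hmap : Q.map f = Qb := by
    have hle : Q.map f ≤ Qb := by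
      rw [Subgroup.map_le_iff_le_comap, ← hQs]; exact hQle
    apply Subgroup.eq_of_le_of_card_ge hle
    have hc1 : Nat.card (Q.map f) = Nat.card Q := by
      have hψ : Function.Injective (f.comp Q.subtype) := by
        rw [injective_iff_map_eq_one]
        intro x hx
        exact Subtype.ext (hinj x x.2 hx)
      have hr : (f.comp Q.subtype).range = Q.map f := by
        rw [← MonoidHom.map_range, Subgroup.range_subtype]
      rw [← hr]
      exact (Nat.card_congr (MonoidHom.ofInjective hψ).toEquiv).symm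
    have hc2 : Nat.card Q = Nat.card S₀ := by
      rw [hQdef]; exact Subgroup.card_map_of_injective Qs.subtype_injective
    obtain ⟨j, hj⟩ := hQb.exists_card_eq
    have hc3 : Nat.card Qb ∣ Nat.card Qs := by
      have h3 : Qs.map f = Qb := by
        rw [hQs]; exact Subgroup.map_comap_eq_self_of_surjective hfs Qb
      rw [← h3]; exact Subgroup.card_map_dvd Qs f
    have hc4 : q ^ j ∣ Nat.card S₀ :=
      S₀.pow_dvd_card_of_pow_dvd_card (by rw [← hj]; exact hc3)
    rw [hc1, hc2, hj]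
    exact Nat.le_of_dvd Nat.card_pos hc4
  obtain ⟨g, rfl⟩ := hfs gb
  have hgπ : PiElt π g := piElt_of_map f hkerπ hgbπ
  have hgQs : ∀ y ∈ Qs, g * y * g⁻¹ ∈ Qs := by
    intro y hy
    rw [hQs, Subgroup.mem_comap] at hy ⊢
    rw [map_mul, map_mul, map_inv]
    exact (Subgroup.mem_normalizer_iff.mp hgb (f y)).mp hy
  obtain ⟨R, hR⟩ : ∃ R : Subgroup Qs,
      R = (Q.map (MulAut.conj g).toMonoidHom).subgroupOf Qs := ⟨_, rfl⟩
  have hRp : IsPGroup q R := by
    rw [hR]
    exact (hQp.map _).comap_subtype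
  obtain ⟨h', hh⟩ := Helper12.exists_conj_mem_sylow S₀ hRp
  have hnorm : (h' : G) * g ∈ Subgroup.normalizer (Q : Set G) := by
    apply Subgroup.mem_normalizer_fintype
    intro y hy
    have hy' : y ∈ Q := hy
    have h1 : g * y * g⁻¹ ∈ Qs := hgQs y (hQle hy')
    have h2 : (⟨g * y * g⁻¹, h1⟩ : Qs) ∈ R := by
      rw [hR, Subgroup.mem_subgroupOf]
      exact ⟨y, hy', rfl⟩
    have h3 := hh _ h2
    show (h' : G) * g * y * ((h' : G) * g)⁻¹ ∈ Q
    rw [hQdef]
    refine ⟨_, h3, ?_⟩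
    simp [mul_assoc]
  have hQsmem : ∀ z : G, z ∈ Qs → f z ∈ Qb := by
    intro z hz
    rw [hQs] at hz
    exact hz
  have hfh : f (h' : G) ∈ Q.map f := by
    rw [hmap]
    exact hQsmem _ h'.2
  obtain ⟨y, hyQ, hy⟩ := hfh
  obtain ⟨l, hl⟩ : ∃ l : G, l = y⁻¹ * (h' : G) := ⟨_, rfl⟩
  have hlker : f l = 1 := by rw [hl, map_mul, map_inv, hy, inv_mul_cancel]
  have hg1 : l * g ∈ Subgroup.normalizer (Q : Set G) := by
    have h1 : l * g = y⁻¹ * ((h' : G) * g) := by rw [hl]; group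
    rw [h1]
    exact Subgroup.mul_mem _ (Subgroup.inv_mem _ (Subgroup.le_normalizer hyQ)) hnorm
  have hg1π : PiElt π (l * g) := by
    apply piElt_of_map f hkerπ
    rw [map_mul, hlker, one_mul]; exact hgbπ
  have hQ1 : Q ≠ ⊥ := by
    intro h0
    apply hQb1
    rw [← hmap, h0, Subgroup.map_bot]
  have hc := h q hq hqπ Q hQp hQ1 (l * g) hg1 hg1π
  rw [Subgroup.mem_centralizer_iff] at hc ⊢
  intro yb hyb
  have hyb' : yb ∈ Q.map f := by rw [hmap]; exact hyb
  obtain ⟨y', hy'Q, rfl⟩ := hyb'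
  have h5 := hc y' hy'Q
  have h6 : f (l * g) = f g := by rw [map_mul, hlker, one_mul]
  rw [← h6, ← map_mul, ← map_mul, h5]

theorem piClosed_of_piKer {π : Set ℕ} {U V : Type*} [Group U] [Group V] (φ : U →* V)
    (hker : ∀ x ∈ φ.ker, PiElt π x) (LV : Subgroup V) (hLV : ∀ x : V, x ∈ LV ↔ PiElt π x) :
    ∃ T : Subgroup U, ∀ x : U, x ∈ T ↔ PiElt π x :=
  ⟨LV.comap φ, fun x => by
    rw [Subgroup.mem_comap, hLV]
    exact ⟨fun h => piElt_of_map φ hker h, fun h => piElt_map φ h⟩⟩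

theorem piClosed_of_piPrimeKer {π : Set ℕ} {U V : Type*} [Group U] [Finite U] [Group V]
    [Finite V] (hW : WHom π U) (φ : U →* V)
    (hker : ∀ p : ℕ, p.Prime → p ∣ Nat.card φ.ker → p ∉ π)
    (LV : Subgroup V) (hLV : ∀ x : V, x ∈ LV ↔ PiElt π x) :
    ∃ T : Subgroup U, ∀ x : U, x ∈ T ↔ PiElt π x := by
  classical
  obtain ⟨N, hN⟩ : ∃ N : Subgroup U, N = φ.ker := ⟨_, rfl⟩
  have hNn : N.Normal := by rw [hN]; infer_instance
  have hNπ : ∀ p : ℕ, p.Prime → p ∣ Nat.card N → p ∉ π := by rw [hN]; exact hker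
  have hcent : ∀ g : U, PiElt π g → ∀ n ∈ N, n * g = g * n := by
    intro g hg
    obtain ⟨CN, hCN⟩ : ∃ X : Subgroup U, X = N ⊓ Subgroup.centralizer ({g} : Set U) :=
      ⟨_, rfl⟩
    have hAN : Subgroup.zpowers g ≤ Subgroup.normalizer (N : Set U) := by
      rw [Subgroup.normalizer_eq_top_iff.mpr hNn]; exact le_top
    have hcop : (Nat.card (Subgroup.zpowers g)).Coprime (Nat.card N) := by
      rw [Nat.card_zpowers]
      by_contra hnc
      obtain ⟨p, hp, h1, h2⟩ := Nat.Prime.not_coprime_iff_dvd.mp hnc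
      exact hNπ p hp h2 (hg p hp h1)
    have hsolv : Group.IsSolvable (Subgroup.zpowers g) := by
      apply Group.isSolvable_of_comm
      intro a b
      obtain ⟨i, hi⟩ := Subgroup.mem_zpowers_iff.mp a.2
      obtain ⟨j, hj⟩ := Subgroup.mem_zpowers_iff.mp b.2
      apply Subtype.ext
      show (a : U) * (b : U) = (b : U) * (a : U)
      rw [← hi, ← hj]
      exact zpow_mul_comm g i j
    have hN0 : Nat.card N ≠ 0 := Nat.card_pos.ne'
    have hC0 : Nat.card CN ≠ 0 := Nat.card_pos.ne'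
    have hdiv : Nat.card N ∣ Nat.card CN := by
      rw [← Nat.factorization_le_iff_dvd hN0 hC0]
      intro q
      by_cases hq : q.Prime
      · have : Fact q.Prime := ⟨hq⟩
        obtain ⟨Q, hQN, hQcard, hAQ⟩ :=
          Helper1.inv_sylow_exists (Subgroup.zpowers g) N hAN hcop (Or.inl hsolv) q
        by_cases hfac : (Nat.card N).factorization q = 0
        · rw [hfac]; exact Nat.zero_le _
        · have hqN : q ∣ Nat.card N := Nat.dvd_of_factorization_pos hfac
          have hqπ : q ∉ π := hNπ q hq hqN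
          have hQp : IsPGroup q Q := IsPGroup.of_card hQcard
          have hQ1 : Q ≠ ⊥ := by
            intro h0
            rw [h0, Subgroup.card_bot] at hQcard
            have h1 := Nat.one_lt_pow hfac hq.one_lt
            omega
          have hgQ : g ∈ Subgroup.normalizer (Q : Set U) := hAQ (Subgroup.mem_zpowers g)
          have hc := hW q hq hqπ Q hQp hQ1 g hgQ hg
          have hQle : Q ≤ CN := by
            rw [hCN]
            refine le_inf hQN ?_
            intro x hx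
            rw [Subgroup.mem_centralizer_singleton_iff]
            exact (Subgroup.mem_centralizer_iff.mp hc x hx)
          have h1 : q ^ (Nat.card N).factorization q ∣ Nat.card CN := by
            rw [← hQcard]; exact Subgroup.card_dvd_of_le hQle
          exact (hq.pow_dvd_iff_le_factorization hC0).mp h1
      · rw [Nat.factorization_eq_zero_of_not_prime _ hq]; exact Nat.zero_le _
    have hCNeq : CN = N :=
      Subgroup.eq_of_le_of_card_ge (by rw [hCN]; exact inf_le_left)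
        (Nat.le_of_dvd Nat.card_pos hdiv)
    intro n hn
    have h3 : n ∈ CN := by rw [hCNeq]; exact hn
    rw [hCN] at h3
    exact Subgroup.mem_centralizer_singleton_iff.mp h3.2
  obtain ⟨D, hD⟩ : ∃ D : Subgroup U, D = Subgroup.centralizer (N : Set U) ⊓ LV.comap φ :=
    ⟨_, rfl⟩
  have hDmem : ∀ x : U, x ∈ D ↔ (∀ n ∈ N, n * x = x * n) ∧ PiElt π (φ x) := by
    intro x
    rw [hD, Subgroup.mem_inf, Subgroup.mem_centralizer_iff, Subgroup.mem_comap, hLV]
    rfl
  obtain ⟨ψ, hψ⟩ : ∃ ψ : D →* V, ψ = φ.comp D.subtype := ⟨_, rfl⟩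
  obtain ⟨Z, hZ⟩ : ∃ Z : Subgroup D, Z = ψ.ker := ⟨_, rfl⟩
  have hZn : Z.Normal := by rw [hZ]; infer_instance
  have hZmem : ∀ z : D, z ∈ Z ↔ (z : U) ∈ N := by
    intro z
    rw [hZ, MonoidHom.mem_ker, hψ, hN, MonoidHom.mem_ker]
    rfl
  have hZcard : Nat.card Z ∣ Nat.card N := by
    have h1 : Z.map D.subtype ≤ N := by
      rintro _ ⟨z, hz, rfl⟩
      exact (hZmem z).mp hz
    have h2 : Nat.card (Z.map D.subtype) = Nat.card Z :=
      Subgroup.card_map_of_injective D.subtype_injective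
    rw [← h2]
    exact Subgroup.card_dvd_of_le h1
  have hZindex : ∀ p : ℕ, p.Prime → p ∣ Z.index → p ∈ π := by
    intro p hp hdvd
    rw [hZ, Subgroup.index_ker] at hdvd
    have h1 : ψ.range ≤ LV := by
      rintro _ ⟨d, rfl⟩
      rw [hψ, hLV]
      exact ((hDmem d).mp d.2).2
    have h2 : ∀ x : LV, PiElt π x := by
      intro x
      have h3 := (hLV x).mp x.2
      intro p hp hdvd
      rw [← Subgroup.orderOf_coe] at hdvd
      exact h3 p hp hdvd
    exact piNum_card h2 p hp (hdvd.trans (Subgroup.card_dvd_of_le h1))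
  have hcop : (Nat.card Z).Coprime Z.index := by
    by_contra hnc
    obtain ⟨p, hp, h1, h2⟩ := Nat.Prime.not_coprime_iff_dvd.mp hnc
    exact hNπ p hp (h1.trans hZcard) (hZindex p hp h2)
  obtain ⟨T', hT'⟩ := Subgroup.exists_right_complement'_of_coprime hcop
  have hZcentral : ∀ z ∈ Z, ∀ d : D, z * d = d * z := by
    intro z hz d
    apply Subtype.ext
    exact ((hDmem d).mp d.2).1 z ((hZmem z).mp hz)
  have hordZ : ∀ z ∈ Z, orderOf z ∣ Nat.card Z := by
    intro z hz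
    have h1 := orderOf_dvd_natCard (⟨z, hz⟩ : Z)
    rwa [Subgroup.orderOf_mk] at h1
  refine ⟨T'.map D.subtype, fun x => ⟨?_, ?_⟩⟩
  · rintro ⟨t, ht, rfl⟩
    apply piElt_of_dvd (m := Z.index) _ hZindex
    rw [hT'.symm.index_eq_card]
    have h1 := orderOf_dvd_natCard (⟨t, ht⟩ : T')
    rw [Subgroup.orderOf_mk] at h1
    rw [Subgroup.coe_subtype, Subgroup.orderOf_coe]
    exact h1
  · intro hx
    have hxD : x ∈ D := (hDmem x).mpr ⟨fun n hn => hcent x hx n hn, piElt_map φ hx⟩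
    obtain ⟨⟨⟨z, hz⟩, ⟨t, ht⟩⟩, hzt⟩ := hT'.2 (⟨x, hxD⟩ : D)
    have hzt' : z * t = ⟨x, hxD⟩ := hzt
    obtain ⟨c, hc⟩ : ∃ c : ℕ, c = Nat.card T' := ⟨_, rfl⟩
    have htc : t ^ c = 1 := by
      have h1 := pow_card_eq_one' (G := T') (x := ⟨t, ht⟩)
      rw [hc]; exact congrArg Subtype.val h1
    have hcomm : Commute z t := hZcentral z hz t
    have hpow : (⟨x, hxD⟩ : D) ^ c = z ^ c := by
      rw [← hzt', hcomm.mul_pow, htc, mul_one]
    have hzπ : PiElt π (z ^ c) := by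
      rw [← hpow]
      intro p hp hdvd
      apply hx p hp
      exact hdvd.trans ((orderOf_pow_dvd c).trans (dvd_of_eq (Subgroup.orderOf_mk x hxD)))
    have hzN : ∀ p : ℕ, p.Prime → p ∣ Nat.card Z → p ∉ π :=
      fun p hp hdvd => hNπ p hp (hdvd.trans hZcard)
    have hz1 : z ^ c = 1 :=
      eq_one_of_piElt hzπ ((orderOf_pow_dvd c).trans (hordZ z hz)) hzN
    have hz0 : z = 1 := by
      have h1 : orderOf z ∣ c := orderOf_dvd_of_pow_eq_one hz1
      have h3 : orderOf z ∣ Nat.gcd (Nat.card Z) Z.index :=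
        Nat.dvd_gcd (hordZ z hz) (by rw [hT'.symm.index_eq_card, ← hc]; exact h1)
      rw [Nat.Coprime.gcd_eq_one hcop] at h3
      exact orderOf_eq_one_iff.mp (Nat.dvd_one.mp h3)
    rw [hz0, one_mul] at hzt'
    exact ⟨t, ht, by rw [hzt']; rfl⟩

theorem piClosed_core {π : Set ℕ} {U : Type*} [Group U] [Finite U] (hW : WHom π U)
    (N : Subgroup U) [hNn : N.Normal] (LN : Subgroup U)
    (hLN : ∀ x : U, x ∈ LN ↔ x ∈ N ∧ PiElt π x)
    (LQ : Subgroup (U ⧸ N)) (hLQ : ∀ x : U ⧸ N, x ∈ LQ ↔ PiElt π x) :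
    ∃ T : Subgroup U, ∀ x : U, x ∈ T ↔ PiElt π x := by
  have hLNn : LN.Normal := by
    constructor
    intro x hx g
    rw [hLN] at hx ⊢
    exact ⟨hNn.conj_mem x hx.1 g, piElt_conj hx.2 g⟩
  have hLNπ : ∀ x ∈ LN, PiElt π x := fun x hx => ((hLN x).mp hx).2
  have hLNle : LN ≤ N := fun x hx => ((hLN x).mp hx).1
  have hW' : WHom π (U ⧸ LN) := whom_quot hW LN hLNπ
  obtain ⟨φ, hφ⟩ : ∃ φ : U ⧸ LN →* U ⧸ N,
      φ = QuotientGroup.lift LN (QuotientGroup.mk' N)
        (by rw [QuotientGroup.ker_mk']; exact hLNle) := ⟨_, rfl⟩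
  have hkermk : ∀ x ∈ (QuotientGroup.mk' LN).ker, PiElt π x := by
    rw [QuotientGroup.ker_mk']; exact hLNπ
  have hker : ∀ p : ℕ, p.Prime → p ∣ Nat.card φ.ker → p ∉ π := by
    intro p hp hdvd hpπ
    have : Fact p.Prime := ⟨hp⟩
    obtain ⟨z, hz⟩ := exists_prime_orderOf_dvd_card' p hdvd
    obtain ⟨x, hx⟩ := QuotientGroup.mk_surjective (z : U ⧸ LN)
    have hzk : φ (z : U ⧸ LN) = 1 := z.2
    have hxN : x ∈ N := by
      rw [← hx, hφ, QuotientGroup.lift_mk] at hzk
      exact (QuotientGroup.eq_one_iff x).mp hzk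
    have hzo : orderOf (z : U ⧸ LN) = p := by rw [Subgroup.orderOf_coe]; exact hz
    have hxπ : PiElt π x := by
      apply piElt_of_map (QuotientGroup.mk' LN) hkermk
      show PiElt π ((x : U ⧸ LN))
      rw [hx]
      intro r hr hdvd
      rw [hzo] at hdvd
      rw [(Nat.prime_dvd_prime_iff_eq hr hp).mp hdvd]
      exact hpπ
    have hxL : x ∈ LN := (hLN x).mpr ⟨hxN, hxπ⟩
    have hz1 : (z : U ⧸ LN) = 1 := by
      rw [← hx]; exact (QuotientGroup.eq_one_iff x).mpr hxL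
    rw [hz1, orderOf_one] at hzo
    exact hp.one_lt.ne hzo
  obtain ⟨T₁, hT₁⟩ := piClosed_of_piPrimeKer hW' φ hker LQ hLQ
  exact piClosed_of_piKer (QuotientGroup.mk' LN) hkermk T₁ hT₁

end Cfsg.Agent.Helper22
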