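import Cfsg.Agent.Helper22.SzBridge

set_option autoImplicit false
set_option linter.style.haveILetI false
set_option linter.unusedSectionVars false
set_option linter.unusedSimpArgs false
set_option linter.unusedVariables false
set_option linter.unusedTactic false
set_option maxHeartbeats 1000000

open Cfsg
open Matrix
open scoped Pointwise

namespace Cfsg.Agent.Helper22

theorem zt_coset {L : Type*} [Group L] [Finite L] (m : ℕ) (S₀ : Subgroup L)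
    (hcL : Nat.card L =
      (2 ^ (2 * m + 1)) ^ 2 * (2 ^ (2 * m + 1) - 1) * ((2 ^ (2 * m + 1)) ^ 2 + 1))
    (hcS : Nat.card ↥S₀ = (2 ^ (2 * m + 1)) ^ 2)
    (hcN : Nat.card ↥(Subgroup.normalizer (S₀ : Set L)) =
      (2 ^ (2 * m + 1)) ^ 2 * (2 ^ (2 * m + 1) - 1))
    (h3 : ∀ x y : L, x ∉ Subgroup.normalizer (S₀ : Set L) →
      y ∉ Subgroup.normalizer (S₀ : Set L) →
      ∃! s : L, s ∈ S₀ ∧ (s * x)⁻¹ * y ∈ Subgroup.normalizer (S₀ : Set L)) :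
    ∃ S : Sylow 2 L,
      Nat.card (Subgroup.normalizer ((S : Subgroup L) : Set L)) =
        (2 ^ (2 * m + 1)) ^ 2 * (2 ^ (2 * m + 1) - 1) ∧
      (Subgroup.normalizer ((S : Subgroup L) : Set L)).index = (2 ^ (2 * m + 1)) ^ 2 + 1 ∧
      MulAction.IsMultiplyPretransitive L
        (L ⧸ Subgroup.normalizer ((S : Subgroup L) : Set L)) 2 ∧
      ∀ x y : L ⧸ Subgroup.normalizer ((S : Subgroup L) : Set L),
        x ≠ (QuotientGroup.mk 1) → y ≠ (QuotientGroup.mk 1) →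
        ∃! s : ↥(S : Subgroup L), (s : L) • x = y := by
  haveI : Fact (Nat.Prime 2) := ⟨Nat.prime_two⟩
  have hS2 : IsPGroup 2 ↥S₀ := IsPGroup.of_card (n := 2 * (2 * m + 1)) (by rw [hcS]; ring)
  obtain ⟨S, hS⟩ := hS2.exists_le_sylow
  obtain ⟨k, hk⟩ := IsPGroup.iff_card.mp S.isPGroup'
  have h1 : Nat.card ↥(S : Subgroup L) ∣ Nat.card L := Subgroup.card_subgroup_dvd_card _
  have e : (2 ^ (2 * m + 1)) ^ 2 * (2 ^ (2 * m + 1) - 1) * ((2 ^ (2 * m + 1)) ^ 2 + 1) =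
      (2 ^ (2 * m + 1)) ^ 2 * (((2 ^ (2 * m + 1)) ^ 2 + 1) * (2 ^ (2 * m + 1) - 1)) := by
    ring
  rw [hcL, e] at h1
  have hcop : Nat.Coprime (Nat.card ↥(S : Subgroup L))
      (((2 ^ (2 * m + 1)) ^ 2 + 1) * (2 ^ (2 * m + 1) - 1)) := by
    rw [hk]
    exact Nat.Coprime.pow_left k (Nat.coprime_two_left.mpr (sz_odd_part m))
  have h2 : Nat.card ↥(S : Subgroup L) ∣ (2 ^ (2 * m + 1)) ^ 2 :=
    hcop.dvd_of_dvd_mul_right h1
  have hle : Nat.card ↥(S : Subgroup L) ≤ Nat.card ↥S₀ := by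
    rw [hcS]
    exact Nat.le_of_dvd (by positivity) h2
  have hSU : (S : Subgroup L) = S₀ := (Subgroup.eq_of_le_of_card_ge hS hle).symm
  subst hSU
  have hq : 2 ≤ 2 ^ (2 * m + 1) := by
    calc 2 = 2 ^ 1 := rfl
      _ ≤ 2 ^ (2 * m + 1) := Nat.pow_le_pow_right (by norm_num) (by omega)
  have hpos : 0 < (2 ^ (2 * m + 1)) ^ 2 * (2 ^ (2 * m + 1) - 1) :=
    Nat.mul_pos (by positivity) (by omega)
  refine ⟨S, hcN, ?_, ?_, ?_⟩
  · have hidx := Subgroup.card_mul_index (Subgroup.normalizer ((S : Subgroup L) : Set L))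
    rw [hcN, hcL] at hidx
    exact Nat.eq_of_mul_eq_mul_left hpos hidx
  · rw [MulAction.is_two_pretransitive_iff]
    intro a b c d hab hcd
    obtain ⟨a₀, rfl⟩ := QuotientGroup.mk_surjective a
    obtain ⟨b₀, rfl⟩ := QuotientGroup.mk_surjective b
    obtain ⟨c₀, rfl⟩ := QuotientGroup.mk_surjective c
    obtain ⟨d₀, rfl⟩ := QuotientGroup.mk_surjective d
    have hx : a₀⁻¹ * b₀ ∉ Subgroup.normalizer ((S : Subgroup L) : Set L) :=
      fun h => hab (QuotientGroup.eq.mpr h)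
    have hy : c₀⁻¹ * d₀ ∉ Subgroup.normalizer ((S : Subgroup L) : Set L) :=
      fun h => hcd (QuotientGroup.eq.mpr h)
    obtain ⟨s, ⟨hsS, hsN⟩, -⟩ := h3 _ _ hx hy
    refine ⟨c₀ * s * a₀⁻¹, ?_, ?_⟩
    · show (QuotientGroup.mk (c₀ * s * a₀⁻¹ * a₀) :
        L ⧸ Subgroup.normalizer ((S : Subgroup L) : Set L)) = QuotientGroup.mk c₀
      rw [QuotientGroup.eq]
      have e1 : (c₀ * s * a₀⁻¹ * a₀)⁻¹ * c₀ = s⁻¹ := by group
      rw [e1]
      exact inv_mem (Subgroup.le_normalizer hsS)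
    · show (QuotientGroup.mk (c₀ * s * a₀⁻¹ * b₀) :
        L ⧸ Subgroup.normalizer ((S : Subgroup L) : Set L)) = QuotientGroup.mk d₀
      rw [QuotientGroup.eq]
      have e1 : (c₀ * s * a₀⁻¹ * b₀)⁻¹ * d₀ = (s * (a₀⁻¹ * b₀))⁻¹ * (c₀⁻¹ * d₀) := by group
      rw [e1]
      exact hsN
  · intro x y hx hy
    obtain ⟨x₀, rfl⟩ := QuotientGroup.mk_surjective x
    obtain ⟨y₀, rfl⟩ := QuotientGroup.mk_surjective y
    have hx' : x₀ ∉ Subgroup.normalizer ((S : Subgroup L) : Set L) :=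
      fun h => hx (QuotientGroup.eq.mpr (by rw [mul_one]; exact inv_mem h))
    have hy' : y₀ ∉ Subgroup.normalizer ((S : Subgroup L) : Set L) :=
      fun h => hy (QuotientGroup.eq.mpr (by rw [mul_one]; exact inv_mem h))
    obtain ⟨s, ⟨hsS, hsN⟩, huniq⟩ := h3 x₀ y₀ hx' hy'
    refine ⟨⟨s, hsS⟩, ?_, ?_⟩
    · show (QuotientGroup.mk (s * x₀) :
        L ⧸ Subgroup.normalizer ((S : Subgroup L) : Set L)) = QuotientGroup.mk y₀
      exact QuotientGroup.eq.mpr hsN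
    · rintro ⟨s', hs'S⟩ hs'
      have hs'' : (QuotientGroup.mk (s' * x₀) :
          L ⧸ Subgroup.normalizer ((S : Subgroup L) : Set L)) = QuotientGroup.mk y₀ := hs'
      have h5 := huniq s' ⟨hs'S, QuotientGroup.eq.mp hs''⟩
      exact Subtype.ext h5

theorem zt_transport {G L : Type*} [Group G] [Group L] (e : G ≃* L) (U : Subgroup G)
    (h3 : ∀ x y : G, x ∉ Subgroup.normalizer (U : Set G) →
      y ∉ Subgroup.normalizer (U : Set G) →
      ∃! s : G, s ∈ U ∧ (s * x)⁻¹ * y ∈ Subgroup.normalizer (U : Set G)) :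
    ∀ x y : L, x ∉ Subgroup.normalizer ((U.map e.toMonoidHom : Subgroup L) : Set L) →
      y ∉ Subgroup.normalizer ((U.map e.toMonoidHom : Subgroup L) : Set L) →
      ∃! s : L, s ∈ U.map e.toMonoidHom ∧
        (s * x)⁻¹ * y ∈ Subgroup.normalizer ((U.map e.toMonoidHom : Subgroup L) : Set L) := by
  rw [← Subgroup.map_equiv_normalizer_eq]
  intro x y hx hy
  have hx' : e.symm x ∉ Subgroup.normalizer (U : Set G) :=
    fun h => hx (Subgroup.mem_map_equiv.mpr h)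
  have hy' : e.symm y ∉ Subgroup.normalizer (U : Set G) :=
    fun h => hy (Subgroup.mem_map_equiv.mpr h)
  obtain ⟨s, ⟨hsU, hsN⟩, huniq⟩ := h3 _ _ hx' hy'
  refine ⟨e s, ⟨Subgroup.mem_map_of_mem _ hsU, ?_⟩, ?_⟩
  · rw [Subgroup.mem_map_equiv]
    rw [map_mul, map_inv, map_mul, MulEquiv.symm_apply_apply]
    exact hsN
  · rintro s' ⟨hs'U, hs'N⟩
    rw [Subgroup.mem_map_equiv] at hs'U hs'N
    rw [map_mul, map_inv, map_mul] at hs'N
    have h5 := huniq (e.symm s') ⟨hs'U, hs'N⟩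
    rw [← h5, MulEquiv.apply_symm_apply]

section SzCoset

variable {F : Type*} [Field F] [Fintype F] {m : ℕ}

theorem zt_sz (hm : 1 ≤ m) (hF : Fintype.card F = 2 ^ (2 * m + 1)) :
    ∀ x y : ↥(Cfsg.Sz F m),
      x ∉ Subgroup.normalizer ((szU hF : Subgroup ↥(Cfsg.Sz F m)) : Set ↥(Cfsg.Sz F m)) →
      y ∉ Subgroup.normalizer ((szU hF : Subgroup ↥(Cfsg.Sz F m)) : Set ↥(Cfsg.Sz F m)) →
      ∃! s : ↥(Cfsg.Sz F m), s ∈ szU hF ∧ (s * x)⁻¹ * y ∈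
        Subgroup.normalizer ((szU hF : Subgroup ↥(Cfsg.Sz F m)) : Set ↥(Cfsg.Sz F m)) := by
  rw [szU_normalizer hm hF]
  intro x y hx hy
  have hmem : ∀ g : ↥(Cfsg.Sz F m), g ∈ szH F m ↔
      (g : Matrix.SpecialLinearGroup (Fin 4) F) • Cfsg.suzukiPointInfinity F =
        Cfsg.suzukiPointInfinity F := fun g => MulAction.mem_stabilizer_iff
  have hpt : ∀ g : ↥(Cfsg.Sz F m), g ∉ szH F m → ∃ a b : F,
      (g : Matrix.SpecialLinearGroup (Fin 4) F) • Cfsg.suzukiPointInfinity F =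
        szPt F m a b := by
    intro g hg
    rcases sz_mem_ovoid_iff.mp (sz_smul_mem g.2 sz_inf_mem) with h | ⟨a, b, h⟩
    · exact absurd ((hmem g).mpr h) hg
    · exact ⟨a, b, h⟩
  obtain ⟨a, b, hxa⟩ := hpt x hx
  obtain ⟨c, d, hyc⟩ := hpt y hy
  have hTinv : ∀ a b : F,
      (((szTG hF a b)⁻¹ : ↥(Cfsg.Sz F m)) : Matrix.SpecialLinearGroup (Fin 4) F) •
        szPt F m a b = Cfsg.suzukiPointZero F := by
    intro a b
    have h0 : ((szTG hF a b : ↥(Cfsg.Sz F m)) : Matrix.SpecialLinearGroup (Fin 4) F) •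
        Cfsg.suzukiPointZero F = szPt F m a b := szT_zero hF a b
    rw [← h0, ← mul_smul, ← Subgroup.coe_mul, inv_mul_cancel, Subgroup.coe_one, one_smul]
  have key : ∀ s : ↥(Cfsg.Sz F m), ((s * x)⁻¹ * y ∈ szH F m ↔
      (s : Matrix.SpecialLinearGroup (Fin 4) F) • szPt F m a b = szPt F m c d) := by
    intro s
    rw [hmem]
    have e1 : (((s * x)⁻¹ * y : ↥(Cfsg.Sz F m)) : Matrix.SpecialLinearGroup (Fin 4) F) •
        Cfsg.suzukiPointInfinity F =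
        ((s * x : ↥(Cfsg.Sz F m)) : Matrix.SpecialLinearGroup (Fin 4) F)⁻¹ •
          szPt F m c d := by
      rw [Subgroup.coe_mul, mul_smul, hyc, Subgroup.coe_inv]
    have e2 : ((s * x : ↥(Cfsg.Sz F m)) : Matrix.SpecialLinearGroup (Fin 4) F) •
        Cfsg.suzukiPointInfinity F =
        (s : Matrix.SpecialLinearGroup (Fin 4) F) • szPt F m a b := by
      rw [Subgroup.coe_mul, mul_smul, hxa]
    rw [e1, inv_smul_eq_iff, e2]
    exact eq_comm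
  have hs0 : ((szTG hF c d * (szTG hF a b)⁻¹ : ↥(Cfsg.Sz F m)) :
      Matrix.SpecialLinearGroup (Fin 4) F) • szPt F m a b = szPt F m c d := by
    rw [Subgroup.coe_mul, mul_smul, hTinv]
    exact szT_zero hF c d
  refine ⟨szTG hF c d * (szTG hF a b)⁻¹,
    ⟨(szU hF).mul_mem ⟨(c, d), rfl⟩ ((szU hF).inv_mem ⟨(a, b), rfl⟩), (key _).mpr hs0⟩, ?_⟩
  rintro s' ⟨hs'U, hs'N⟩
  have h5 := (key s').mp hs'N
  have hmemU : (szTG hF c d * (szTG hF a b)⁻¹)⁻¹ * s' ∈ szU hF :=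
    (szU hF).mul_mem ((szU hF).inv_mem
      ((szU hF).mul_mem ⟨(c, d), rfl⟩ ((szU hF).inv_mem ⟨(a, b), rfl⟩))) hs'U
  obtain ⟨⟨a', b'⟩, hab'⟩ := hmemU
  have hab'' : szTG hF a' b' = (szTG hF c d * (szTG hF a b)⁻¹)⁻¹ * s' := hab'
  have hfix : szT F m a' b' • szPt F m a b = szPt F m a b := by
    have e3 : szT F m a' b' = (((szTG hF c d * (szTG hF a b)⁻¹)⁻¹ * s' : ↥(Cfsg.Sz F m)) :
        Matrix.SpecialLinearGroup (Fin 4) F) := congrArg Subtype.val hab''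
    rw [e3, Subgroup.coe_mul, mul_smul, h5, Subgroup.coe_inv, inv_smul_eq_iff, hs0]
  have h00 : a' = 0 ∧ b' = 0 := by
    by_contra hcon
    have hne : a' ≠ 0 ∨ b' ≠ 0 := by
      by_contra hcon2
      push_neg at hcon2
      exact hcon hcon2
    exact szPt_ne_inf a b (szT_fix' hF hne (szPt_mem a b) hfix)
  rw [h00.1, h00.2, szTG_one] at hab''
  exact (inv_mul_eq_one.mp hab''.symm).symm

theorem zt_lie (hm : 1 ≤ m) (hF : Fintype.card F = 2 ^ (2 * m + 1)) :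
    Nat.card ↥(Cfsg.Lie.Sz F (2 ^ (m + 1))) =
      (2 ^ (2 * m + 1)) ^ 2 * (2 ^ (2 * m + 1) - 1) * ((2 ^ (2 * m + 1)) ^ 2 + 1) ∧
    ∃ S : Sylow 2 ↥(Cfsg.Lie.Sz F (2 ^ (m + 1))),
      Nat.card (Subgroup.normalizer ((S : Subgroup ↥(Cfsg.Lie.Sz F (2 ^ (m + 1)))) :
        Set ↥(Cfsg.Lie.Sz F (2 ^ (m + 1))))) =
        (2 ^ (2 * m + 1)) ^ 2 * (2 ^ (2 * m + 1) - 1) ∧
      (Subgroup.normalizer ((S : Subgroup ↥(Cfsg.Lie.Sz F (2 ^ (m + 1)))) :
        Set ↥(Cfsg.Lie.Sz F (2 ^ (m + 1))))).index = (2 ^ (2 * m + 1)) ^ 2 + 1 ∧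
      MulAction.IsMultiplyPretransitive ↥(Cfsg.Lie.Sz F (2 ^ (m + 1)))
        (↥(Cfsg.Lie.Sz F (2 ^ (m + 1))) ⧸
          Subgroup.normalizer ((S : Subgroup ↥(Cfsg.Lie.Sz F (2 ^ (m + 1)))) :
            Set ↥(Cfsg.Lie.Sz F (2 ^ (m + 1))))) 2 ∧
      ∀ x y : ↥(Cfsg.Lie.Sz F (2 ^ (m + 1))) ⧸
          Subgroup.normalizer ((S : Subgroup ↥(Cfsg.Lie.Sz F (2 ^ (m + 1)))) :
            Set ↥(Cfsg.Lie.Sz F (2 ^ (m + 1)))),
        x ≠ (QuotientGroup.mk 1) → y ≠ (QuotientGroup.mk 1) →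
        ∃! s : ↥(S : Subgroup ↥(Cfsg.Lie.Sz F (2 ^ (m + 1)))),
          (s : ↥(Cfsg.Lie.Sz F (2 ^ (m + 1)))) • x = y := by
  haveI : Finite ↥(Cfsg.Lie.Sz F (2 ^ (m + 1))) := Finite.of_equiv _ (szBridge hm hF).toEquiv
  have hcL : Nat.card ↥(Cfsg.Lie.Sz F (2 ^ (m + 1))) =
      (2 ^ (2 * m + 1)) ^ 2 * (2 ^ (2 * m + 1) - 1) * ((2 ^ (2 * m + 1)) ^ 2 + 1) := by
    rw [← Nat.card_congr (szBridge hm hF).toEquiv, sz_card hm hF]
    ring
  have hcS : Nat.card ↥((szU hF).map (szBridge hm hF).toMonoidHom) = (2 ^ (2 * m + 1)) ^ 2 :=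
    (Subgroup.card_map_of_injective (f := (szBridge hm hF).toMonoidHom)
      (szBridge hm hF).injective).trans (szU_card hF)
  have hcN : Nat.card ↥(Subgroup.normalizer
      (((szU hF).map (szBridge hm hF).toMonoidHom : Subgroup ↥(Cfsg.Lie.Sz F (2 ^ (m + 1)))) :
        Set ↥(Cfsg.Lie.Sz F (2 ^ (m + 1))))) =
      (2 ^ (2 * m + 1)) ^ 2 * (2 ^ (2 * m + 1) - 1) := by
    rw [← Subgroup.map_equiv_normalizer_eq,
      Subgroup.card_map_of_injective (f := (szBridge hm hF).toMonoidHom)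
        (szBridge hm hF).injective, szU_normalizer hm hF]
    exact sz_stab_card hm hF
  exact ⟨hcL, zt_coset m _ hcL hcS hcN (zt_transport (szBridge hm hF) (szU hF) (zt_sz hm hF))⟩

end SzCoset

end Cfsg.Agent.Helper22
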