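import Cfsg.Agent.Helper22.SzBridge
import Cfsg.Prelude.Def_KGroupFacts

set_option autoImplicit false
set_option linter.style.haveILetI false
set_option linter.unusedSectionVars false
set_option linter.unusedSimpArgs false
set_option linter.unusedVariables false
set_option linter.unusedTactic false
set_option maxHeartbeats 1000000

open Cfsg
open Matrix
open scoped Pointwise

namespace Cfsg.Agent.Helper22

theorem out_congr {G H : Type*} [Group G] [Group H] (e : G ≃* H) :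
    Nat.card (Cfsg.Out G) = Nat.card (Cfsg.Out H) := by
  have he : (Cfsg.Inn G).map (MulAut.congr e : MulAut G →* MulAut H) = Cfsg.Inn H := by
    ext β
    constructor
    · rintro ⟨α, ⟨g, rfl⟩, rfl⟩
      refine ⟨e g, ?_⟩
      ext x
      show e g * x * (e g)⁻¹ = e (g * e.symm x * g⁻¹)
      rw [map_mul, map_mul, map_inv, MulEquiv.apply_symm_apply]
    · rintro ⟨h, rfl⟩
      refine ⟨MulAut.conj (e.symm h), ⟨e.symm h, rfl⟩, ?_⟩
      ext x
      show e (e.symm h * e.symm x * (e.symm h)⁻¹) = h * x * h⁻¹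
      rw [map_mul, map_mul, map_inv, MulEquiv.apply_symm_apply, MulEquiv.apply_symm_apply]
  exact Nat.card_congr (QuotientGroup.congr (Cfsg.Inn G) (Cfsg.Inn H) (MulAut.congr e) he).toEquiv

section SzOut

variable {F : Type*} [Field F] [Fintype F] {m : ℕ}

/-- The endomorphism induced by a ring endomorphism of the field. -/
theorem out_field_hom (hm : 1 ≤ m) (hF : Fintype.card F = 2 ^ (2 * m + 1)) (τ : F →+* F) :
    ∃ Ψ : ↥(Cfsg.Sz F m) →* ↥(Cfsg.Sz F m), Function.Injective Ψ ∧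
      (∀ a b : F, Ψ (szTG hF a b) = szTG hF (τ a) (τ b)) ∧ Ψ (szWG hF) = szWG hF ∧
      ∀ δ : Fˣ, Ψ (szDG hF δ) = szDG hF (Units.map (τ : F →* F) δ) := by
  have hθc : ∀ y : F, szθ F m (τ y) = τ (szθ F m y) := by
    intro y
    show (τ y) ^ 2 ^ (m + 1) = τ (y ^ 2 ^ (m + 1))
    rw [map_pow]
  have hc2 : ∀ y : F, (τ y) ^ 2 ^ m = τ (y ^ 2 ^ m) := by
    intro y
    rw [map_pow]
  have hmem : ∀ g : ↥(Cfsg.Sz F m),
      Matrix.SpecialLinearGroup.map τ (g : Matrix.SpecialLinearGroup (Fin 4) F) ∈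
        Cfsg.Sz F m := by
    intro g
    rcases sz_bruhat hm hF g with ⟨c, d, δ, hg⟩ | ⟨x, y, c, d, δ, hg⟩
    · have e : (g : Matrix.SpecialLinearGroup (Fin 4) F) = szT F m c d * szD F m δ :=
        congrArg Subtype.val hg
      rw [e, map_mul, sz_sub_mapT τ hθc, sz_sub_mapD τ hc2]
      exact mul_mem (szT_mem hF _ _) (szD_mem hF _)
    · have e : (g : Matrix.SpecialLinearGroup (Fin 4) F) =
          szT F m x y * szW F (szθ_spec hF).h2 * (szT F m c d * szD F m δ) :=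
        congrArg Subtype.val hg
      rw [e, map_mul, map_mul, map_mul, sz_sub_mapT τ hθc, sz_sub_mapT τ hθc,
        sz_sub_mapD τ hc2, sz_sub_mapW τ _ (szθ_spec hF).h2]
      exact mul_mem (mul_mem (szT_mem hF _ _) (szW_mem hF))
        (mul_mem (szT_mem hF _ _) (szD_mem hF _))
  obtain ⟨Ψ, hΨ⟩ : ∃ Ψ : ↥(Cfsg.Sz F m) →* ↥(Cfsg.Sz F m), ∀ g : ↥(Cfsg.Sz F m),
      ((Ψ g : ↥(Cfsg.Sz F m)) : Matrix.SpecialLinearGroup (Fin 4) F) =
        Matrix.SpecialLinearGroup.map τ (g : Matrix.SpecialLinearGroup (Fin 4) F) :=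
    ⟨((Matrix.SpecialLinearGroup.map τ).comp (Cfsg.Sz F m).subtype).codRestrict
      (Cfsg.Sz F m) hmem, fun g => rfl⟩
  have hinj : Function.Injective Ψ := by
    intro g g' h
    have h1 : Matrix.SpecialLinearGroup.map τ (g : Matrix.SpecialLinearGroup (Fin 4) F) =
        Matrix.SpecialLinearGroup.map τ (g' : Matrix.SpecialLinearGroup (Fin 4) F) := by
      rw [← hΨ g, ← hΨ g', h]
    apply Subtype.ext
    apply Subtype.ext
    ext a b
    have h2 := congrFun (congrFun (congrArg Subtype.val h1) a) b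
    exact τ.injective h2
  refine ⟨Ψ, hinj, ?_, ?_, ?_⟩
  · intro a b
    apply Subtype.ext
    rw [hΨ]
    show Matrix.SpecialLinearGroup.map τ (szT F m a b) = szT F m (τ a) (τ b)
    exact sz_sub_mapT τ hθc a b
  · apply Subtype.ext
    rw [hΨ]
    show Matrix.SpecialLinearGroup.map τ (szW F (szθ_spec hF).h2) = szW F (szθ_spec hF).h2
    exact sz_sub_mapW τ _ _
  · intro δ
    apply Subtype.ext
    rw [hΨ]
    show Matrix.SpecialLinearGroup.map τ (szD F m δ) = szD F m (Units.map (τ : F →* F) δ)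
    exact sz_sub_mapD τ hc2 δ

theorem out_cent_trivial (hm : 1 ≤ m) (hF : Fintype.card F = 2 ^ (2 * m + 1))
    (g : ↥(Cfsg.Sz F m))
    (hT : g * szTG hF 1 0 = szTG hF 1 0 * g) (hW : g * szWG hF = szWG hF * g) : g = 1 := by
  have hθ := szθ_spec hF
  have hinf : (g : Matrix.SpecialLinearGroup (Fin 4) F) • Cfsg.suzukiPointInfinity F =
      Cfsg.suzukiPointInfinity F := by
    apply szT_fix' hF (a := 1) (b := 0) (Or.inl one_ne_zero) (sz_smul_mem g.2 sz_inf_mem)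
    have e : szT F m 1 0 * (g : Matrix.SpecialLinearGroup (Fin 4) F) =
        (g : Matrix.SpecialLinearGroup (Fin 4) F) * szT F m 1 0 :=
      (congrArg Subtype.val hT).symm
    rw [← mul_smul, e, mul_smul, szT_inf]
  have hzero : (g : Matrix.SpecialLinearGroup (Fin 4) F) • Cfsg.suzukiPointZero F =
      Cfsg.suzukiPointZero F := by
    have e : szW F hθ.h2 * (g : Matrix.SpecialLinearGroup (Fin 4) F) =
        (g : Matrix.SpecialLinearGroup (Fin 4) F) * szW F hθ.h2 :=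
      (congrArg Subtype.val hW).symm
    rw [← szW_inf hθ.h2, ← mul_smul, ← e, mul_smul, hinf]
  obtain ⟨δ, hδ⟩ := sz_two_pt hm hF g.2 hinf hzero
  have hg : g = szDG hF δ := Subtype.ext hδ
  rw [hg] at hT
  have e1 : szDG hF δ * szTG hF 1 0 = szTG hF (δ * 1) (szθ F m δ * δ * 0) * szDG hF δ :=
    Subtype.ext (szD_T hF δ 1 0)
  rw [e1] at hT
  have e2 := mul_right_cancel hT
  obtain ⟨h1, -⟩ := szTG_inj hF e2
  have hδ1 : δ = 1 := Units.ext (by rw [mul_one] at h1; exact h1)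
  rw [hg, hδ1, szDG_one]

theorem out_normal_form (hm : 1 ≤ m) (hF : Fintype.card F = 2 ^ (2 * m + 1))
    (φ : ↥(Cfsg.Sz F m) →* ↥(Cfsg.Sz F m))
    (hT : φ (szTG hF 1 0) = szTG hF 1 0) (hW : φ (szWG hF) = szWG hF)
    (hD : ∀ δ : Fˣ, ∃ ε : Fˣ, φ (szDG hF δ) = szDG hF ε) :
    ∃ τ : F →+* F, ∀ Ψ : ↥(Cfsg.Sz F m) →* ↥(Cfsg.Sz F m),
      (∀ a b : F, Ψ (szTG hF a b) = szTG hF (τ a) (τ b)) → Ψ (szWG hF) = szWG hF →
      (∀ δ : Fˣ, Ψ (szDG hF δ) = szDG hF (Units.map (τ : F →* F) δ)) → ∀ h, φ h = Ψ h := by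
  classical
  have hθ := szθ_spec hF
  choose ε hε using hD
  have hDinj : ∀ a b : Fˣ, szDG hF a = szDG hF b → a = b :=
    fun a b h => szD_inj (congrArg Subtype.val h)
  have hε1 : ε 1 = 1 := by
    apply hDinj
    rw [← hε, szDG_one, map_one]
  have hεmul : ∀ a b : Fˣ, ε (a * b) = ε a * ε b := by
    intro a b
    apply hDinj
    have e : φ (szDG hF (a * b)) = szDG hF (ε a * ε b) := by
      rw [← szDG_mul hF a b, map_mul, hε, hε, szDG_mul]
    rw [← hε]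
    exact e
  have hconjD : ∀ (δ : Fˣ) (a b : F), szTG hF (δ * a) (szθ F m δ * δ * b) =
      szDG hF δ * szTG hF a b * (szDG hF δ)⁻¹ := by
    intro δ a b
    have e : szDG hF δ * szTG hF a b =
        szTG hF (δ * a) (szθ F m δ * δ * b) * szDG hF δ := Subtype.ext (szD_T hF δ a b)
    rw [e, mul_inv_cancel_right]
  have hTδ : ∀ δ : Fˣ, φ (szTG hF (δ : F) 0) = szTG hF ((ε δ : Fˣ) : F) 0 := by
    intro δ
    have e1 := hconjD δ 1 0
    rw [mul_one, mul_zero] at e1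
    have e2 := hconjD (ε δ) 1 0
    rw [mul_one, mul_zero] at e2
    rw [e1, map_mul, map_mul, map_inv, hε, hT, ← e2]
  obtain ⟨τ₀, hτ0, hτu⟩ : ∃ τ₀ : F → F, τ₀ 0 = 0 ∧ ∀ δ : Fˣ, τ₀ (δ : F) = ((ε δ : Fˣ) : F) :=
    ⟨fun a => if h : a = 0 then 0 else ((ε (Units.mk0 a h) : Fˣ) : F), by simp,
      fun δ => by simp [δ.ne_zero]⟩
  have hTa : ∀ a : F, φ (szTG hF a 0) = szTG hF (τ₀ a) 0 := by
    intro a
    by_cases ha : a = 0
    · rw [ha, hτ0, szTG_one, map_one]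
    · have h := hTδ (Units.mk0 a ha)
      rw [← hτu] at h
      exact h
  have hT01 : φ (szTG hF 0 1) = szTG hF 0 1 := by
    have e : szTG hF 0 1 = szTG hF 1 0 * szTG hF 1 0 := by
      rw [szTG_sq, hθ.hone, mul_one]
    rw [e, map_mul, hT]
  have hT0 : ∀ c : F, ∃ c' : F, φ (szTG hF 0 c) = szTG hF 0 c' := by
    intro c
    by_cases hc : c = 0
    · exact ⟨0, by rw [hc, szTG_one, map_one]⟩
    · obtain ⟨d, hd⟩ := sz_norm_surj hF c
      have hd0 : d ≠ 0 := by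
        rintro rfl
        apply hc
        rw [← hd, mul_zero]
      have e1 := hconjD (Units.mk0 d hd0) 0 1
      rw [mul_zero, mul_one] at e1
      have e1' : szTG hF 0 c = szDG hF (Units.mk0 d hd0) * szTG hF 0 1 *
          (szDG hF (Units.mk0 d hd0))⁻¹ := by
        rw [← e1]
        congr 1
        exact hd.symm
      have e2 := hconjD (ε (Units.mk0 d hd0)) 0 1
      rw [mul_zero, mul_one] at e2
      exact ⟨szθ F m ((ε (Units.mk0 d hd0) : Fˣ) : F) * ((ε (Units.mk0 d hd0) : Fˣ) : F),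
        by rw [e1', map_mul, map_mul, map_inv, hε, hT01, ← e2]⟩
  have key : ∀ a b : F, szTG hF a 0 * szTG hF b 0 =
      szTG hF (a + b) 0 * szTG hF 0 (szθ F m a * b) := by
    intro a b
    rw [szTG_mul, szTG_mul]
    congr 1 <;> ring
  have hadd : ∀ a b : F, τ₀ (a + b) = τ₀ a + τ₀ b := by
    intro a b
    obtain ⟨c', hc'⟩ := hT0 (szθ F m a * b)
    have h1 := congrArg φ (key a b)
    rw [map_mul, map_mul, hTa, hTa, hTa, hc', szTG_mul, szTG_mul] at h1
    obtain ⟨h2, -⟩ := szTG_inj hF h1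
    linear_combination -h2
  have hmul : ∀ a b : F, τ₀ (a * b) = τ₀ a * τ₀ b := by
    intro a b
    by_cases ha : a = 0
    · rw [ha, zero_mul, hτ0, zero_mul]
    by_cases hb : b = 0
    · rw [hb, mul_zero, hτ0, mul_zero]
    have e := hτu (Units.mk0 a ha * Units.mk0 b hb)
    rw [hεmul] at e
    simp only [Units.val_mul] at e
    rw [← hτu, ← hτu] at e
    exact e
  have hone : τ₀ 1 = 1 := by
    have e := hτu 1
    rw [hε1, Units.val_one] at e
    exact e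
  obtain ⟨τ, hτ⟩ : ∃ τ : F →+* F, ∀ a, τ a = τ₀ a :=
    ⟨{ toFun := τ₀, map_one' := hone, map_mul' := hmul, map_zero' := hτ0, map_add' := hadd },
      fun a => rfl⟩
  refine ⟨τ, fun Ψ hΨT hΨW hΨD => ?_⟩
  have hfin := sub_final hm hF (MonoidHom.id ↥(Cfsg.Sz F m)) (MonoidHom.eqLocus φ Ψ) (by
      show φ (szTG hF 1 0) = Ψ (szTG hF 1 0)
      rw [hT, hΨT, map_one, map_zero]) (by
      show φ (szWG hF) = Ψ (szWG hF)
      rw [hW, hΨW]) (by
      intro δ
      show φ (szDG hF δ) = Ψ (szDG hF δ)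
      rw [hε, hΨD]
      congr 1
      apply Units.ext
      show ((ε δ : Fˣ) : F) = τ (δ : F)
      rw [hτ, hτu])
  exact fun h => hfin h

theorem out_card (hm : 1 ≤ m) (hF : Fintype.card F = 2 ^ (2 * m + 1)) :
    Nat.card (Cfsg.Out ↥(Cfsg.Sz F m)) = 2 * m + 1 := by
  classical
  haveI : Fact (Nat.Prime 2) := ⟨Nat.prime_two⟩
  have hθ := szθ_spec hF
  haveI : CharP F 2 := CharTwo.of_one_ne_zero_of_two_eq_zero one_ne_zero hθ.h2
  letI : Algebra (ZMod 2) F := ZMod.algebra F 2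
  have hfr : Module.finrank (ZMod 2) F = 2 * m + 1 := by
    have h := FiniteField.pow_finrank_eq_card 2 F
    rw [hF] at h
    exact Nat.pow_right_injective (le_refl 2) h
  have hgal : Nat.card (F ≃ₐ[ZMod 2] F) = 2 * m + 1 := by
    rw [IsGalois.card_aut_eq_finrank, hfr]
  rw [← hgal]
  have hDinj : ∀ a b : Fˣ, szDG hF a = szDG hF b → a = b :=
    fun a b h => szD_inj (congrArg Subtype.val h)
  have hex : ∀ σ : F ≃ₐ[ZMod 2] F, ∃ Ψ : MulAut ↥(Cfsg.Sz F m),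
      (∀ a b : F, Ψ (szTG hF a b) = szTG hF (σ a) (σ b)) ∧ Ψ (szWG hF) = szWG hF ∧
      ∀ δ : Fˣ, Ψ (szDG hF δ) = szDG hF (Units.map ((σ : F →+* F) : F →* F) δ) := by
    intro σ
    obtain ⟨Ψ, hinj, h1, h2, h3⟩ := out_field_hom hm hF (σ : F →+* F)
    have hbij : Function.Bijective Ψ := ⟨hinj, Finite.injective_iff_surjective.mp hinj⟩
    exact ⟨MulEquiv.ofBijective Ψ hbij, h1, h2, h3⟩
  choose Ψ hΨT hΨW hΨD using hex
  symm
  apply Nat.card_congr
  refine Equiv.ofBijective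
    (fun σ => (QuotientGroup.mk (Ψ σ) : Cfsg.Out ↥(Cfsg.Sz F m))) ⟨?_, ?_⟩
  · intro σ τ h
    have h' : (Ψ σ)⁻¹ * Ψ τ ∈ Cfsg.Inn ↥(Cfsg.Sz F m) := QuotientGroup.eq.mp h
    obtain ⟨g, hg⟩ := h'
    have e0 : Ψ σ * MulAut.conj g = Ψ τ := by
      rw [hg, mul_inv_cancel_left]
    have hval : ∀ x, Ψ τ x = Ψ σ (g * x * g⁻¹) := by
      intro x
      rw [← e0]
      rfl
    have hσT : Ψ σ (szTG hF 1 0) = szTG hF 1 0 := by rw [hΨT, map_one, map_zero]
    have hτT : Ψ τ (szTG hF 1 0) = szTG hF 1 0 := by rw [hΨT, map_one, map_zero]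
    have e3 : szTG hF 1 0 = g * szTG hF 1 0 * g⁻¹ := by
      apply (Ψ σ).injective
      rw [hσT, ← hval, hτT]
    have e4 : szWG hF = g * szWG hF * g⁻¹ := by
      apply (Ψ σ).injective
      rw [hΨW, ← hval, hΨW]
    have hgT : g * szTG hF 1 0 = szTG hF 1 0 * g := by
      calc g * szTG hF 1 0 = (g * szTG hF 1 0 * g⁻¹) * g := by rw [inv_mul_cancel_right]
        _ = szTG hF 1 0 * g := by rw [← e3]
    have hgW : g * szWG hF = szWG hF * g := by
      calc g * szWG hF = (g * szWG hF * g⁻¹) * g := by rw [inv_mul_cancel_right]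
        _ = szWG hF * g := by rw [← e4]
    have hg1 : g = 1 := out_cent_trivial hm hF g hgT hgW
    have hval' : ∀ x, Ψ τ x = Ψ σ x := by
      intro x
      rw [hval, hg1, one_mul, inv_one, mul_one]
    apply AlgEquiv.ext
    intro a
    by_cases ha : a = 0
    · rw [ha, map_zero, map_zero]
    · have e5 := hval' (szDG hF (Units.mk0 a ha))
      rw [hΨD, hΨD] at e5
      have e6 := hDinj _ _ e5
      have e7 := congrArg Units.val e6
      exact e7.symm
  · intro x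
    obtain ⟨α, rfl⟩ := QuotientGroup.mk_surjective x
    have hα : Function.Injective (α.toMonoidHom) := α.injective
    obtain ⟨g₁, h1⟩ := sub_N1 hm hF hF α.toMonoidHom
    obtain ⟨g₂, h2U, h2D⟩ := sub_N2 hm hF hm hF (cjh g₁ α.toMonoidHom) (cjh_inj g₁ hα) h1
    obtain ⟨g₃, h3U, h3D, b₀, h3T⟩ := sub_N3 hm hF hm hF (cjh g₂ (cjh g₁ α.toMonoidHom))
      (cjh_inj g₂ (cjh_inj g₁ hα)) h2U h2D
    obtain ⟨hb₀, hW⟩ := sub_N45 hm hF hm hF (cjh g₃ (cjh g₂ (cjh g₁ α.toMonoidHom)))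
      (cjh_inj g₃ (cjh_inj g₂ (cjh_inj g₁ hα))) h3U h3D h3T
    rw [hb₀] at h3T
    obtain ⟨τ, hτ⟩ := out_normal_form hm hF _ h3T hW h3D
    have hτbij : Function.Bijective τ :=
      ⟨τ.injective, Finite.injective_iff_surjective.mp τ.injective⟩
    have hcomm : ∀ r : ZMod 2, τ (algebraMap (ZMod 2) F r) = algebraMap (ZMod 2) F r :=
      fun r => RingHom.congr_fun
        (Subsingleton.elim (τ.comp (algebraMap (ZMod 2) F)) (algebraMap (ZMod 2) F)) r
    obtain ⟨σ, hσ⟩ : ∃ σ : F ≃ₐ[ZMod 2] F, ∀ a, σ a = τ a :=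
      ⟨AlgEquiv.ofBijective ({ toRingHom := τ, commutes' := hcomm } : F →ₐ[ZMod 2] F) hτbij,
        fun a => rfl⟩
    refine ⟨σ, ?_⟩
    show (QuotientGroup.mk (Ψ σ) : Cfsg.Out ↥(Cfsg.Sz F m)) = QuotientGroup.mk α
    rw [QuotientGroup.eq]
    have hagree := hτ (Ψ σ).toMonoidHom (fun a b => by
        show Ψ σ (szTG hF a b) = szTG hF (τ a) (τ b)
        rw [hΨT, hσ, hσ]) (hΨW σ) (fun δ => by
        show Ψ σ (szDG hF δ) = szDG hF (Units.map (τ : F →* F) δ)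
        rw [hΨD]
        congr 1
        apply Units.ext
        exact hσ _)
    refine ⟨α.symm ((g₃ * g₂ * g₁)⁻¹), ?_⟩
    rw [eq_inv_mul_iff_mul_eq]
    apply MulEquiv.ext
    intro x
    show Ψ σ (α.symm ((g₃ * g₂ * g₁)⁻¹) * x * (α.symm ((g₃ * g₂ * g₁)⁻¹))⁻¹) = α x
    have hag := hagree (α.symm ((g₃ * g₂ * g₁)⁻¹) * x * (α.symm ((g₃ * g₂ * g₁)⁻¹))⁻¹)
    rw [cjh_apply, cjh_apply, cjh_apply] at hag
    have hag' : Ψ σ (α.symm ((g₃ * g₂ * g₁)⁻¹) * x * (α.symm ((g₃ * g₂ * g₁)⁻¹))⁻¹) =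
        g₃ * (g₂ * (g₁ * α (α.symm ((g₃ * g₂ * g₁)⁻¹) * x *
          (α.symm ((g₃ * g₂ * g₁)⁻¹))⁻¹) * g₁⁻¹) * g₂⁻¹) * g₃⁻¹ := hag.symm
    rw [hag']
    simp only [map_mul, map_inv, MulEquiv.apply_symm_apply]
    group

theorem out_lie (hm : 1 ≤ m) (hF : Fintype.card F = 2 ^ (2 * m + 1)) :
    Nat.card (Cfsg.Out ↥(Cfsg.Lie.Sz F (2 ^ (m + 1)))) = 2 * m + 1 := by
  rw [← out_congr (szBridge hm hF)]
  exact out_card hm hF

end SzOut

end Cfsg.Agent.Helper22
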